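import Cfsg.Agent.H6.U6a
import Cfsg.Agent.H56.OrthSimple
import Cfsg.Agent.H58.WittIndex

/-! Row S3384, part M: the model of `Ω₈⁺(4)` on `V = E⁴`, `E` the field with `16` elements,
`Q x = ∑ N (x i)`.  Definitions, kit and slots.  Notes: `blueprints/O84M.md`. -/

set_option autoImplicit false

namespace H86.M8

open H6 (F4)
open H56 QuadraticMap Subgroup

/-- the field with `16` elements; `star x = x ^ 4` -/
abbrev E : Type := QuadraticAlgebra F4 F4.w 1

instance instFactE : Fact (∀ r : F4, r ^ 2 ≠ F4.w + 1 * r) := ⟨by decide⟩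
instance instFintypeE : Fintype E := Fintype.ofEquiv (F4 × F4) (QuadraticAlgebra.equivProd _ _).symm

/-- the norm -/
def nr (x : E) : F4 := x.re * x.re + x.re * x.im + F4.w * (x.im * x.im)
/-- the trace -/
def tr (x : E) : F4 := x.im
/-- `ζ ^ a`, `ζ` of order `5` -/
def zt (a : ZMod 5) : E := (⟨0, F4.w⟩ : E) ^ a.val

theorem e_add_self : ∀ x : E, x + x = 0 := by decide +kernel
theorem e_two : (2 : E) = 0 := by rw [← one_add_one_eq_two, e_add_self]
theorem nr_mul : ∀ x y : E, nr (x * y) = nr x * nr y := by decide +kernel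
theorem nr_add : ∀ x y : E, nr (x + y) = nr x + nr y + tr (x * star y) := by decide +kernel
theorem nr_smul : ∀ (c : F4) (x : E), nr (c • x) = c * c * nr x := by decide +kernel
theorem nr_star : ∀ x : E, nr (star x) = nr x := by decide +kernel
theorem nr_eq_zero : ∀ x : E, nr x = 0 ↔ x = 0 := by decide +kernel
@[simp] theorem nr_zero : nr 0 = 0 := by decide +kernel
@[simp] theorem nr_one : nr 1 = 1 := by decide +kernel
theorem mul_st : ∀ x : E, x * star x = nr x • (1 : E) := by decide +kernel
theorem add_st : ∀ x : E, x + star x = tr x • (1 : E) := by decide +kernel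
theorem st_smul : ∀ (c : F4) (x : E), star (c • x) = c • star x := by decide +kernel
theorem tr_add (x y : E) : tr (x + y) = tr x + tr y := rfl
theorem tr_smul (c : F4) (x : E) : tr (c • x) = c * tr x := rfl
theorem tr_star : ∀ x : E, tr (star x) = tr x := by decide +kernel
@[simp] theorem tr_zero : tr 0 = 0 := rfl
theorem tr_nd : ∀ x : E, (∀ y, tr (x * star y) = 0) → x = 0 := by decide +kernel
theorem smul_one_inj : ∀ c d : F4, c • (1 : E) = d • (1 : E) → c = d := by decide +kernel
theorem zt_add : ∀ a b, zt (a + b) = zt a * zt b := by decide +kernel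
@[simp] theorem zt_zero : zt 0 = 1 := by decide +kernel
@[simp] theorem nr_zt : ∀ a, nr (zt a) = 1 := by decide +kernel
theorem st_zt : ∀ a, star (zt a) = zt (-a) := by decide +kernel
theorem zt_inj : ∀ a b, zt a = zt b → a = b := by decide +kernel
theorem exists_zt : ∀ z : E, nr z = 1 → ∃ a, z = zt a := by decide +kernel

/-- `V = E⁴` -/
abbrev V : Type := Fin 4 → E

/-- `Q x = ∑ N (x i)` -/
def Q : QuadraticForm F4 V where
  toFun x := ∑ i, nr (x i)
  toFun_smul c x := by simp only [Pi.smul_apply, nr_smul, smul_eq_mul, Finset.mul_sum]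
  exists_companion' := ⟨LinearMap.mk₂ F4 (fun x y => ∑ i, tr (x i * star (y i)))
    (fun x y z => by simp only [Pi.add_apply, add_mul, tr_add, Finset.sum_add_distrib])
    (fun c x y => by simp only [Pi.smul_apply, smul_mul_assoc, tr_smul, smul_eq_mul, Finset.mul_sum])
    (fun x y z => by simp only [Pi.add_apply, star_add, mul_add, tr_add, Finset.sum_add_distrib])
    (fun c x y => by
      simp only [Pi.smul_apply, st_smul, mul_smul_comm, tr_smul, smul_eq_mul, Finset.mul_sum]),
    fun x y => by simp only [Pi.add_apply, nr_add, Finset.sum_add_distrib, LinearMap.mk₂_apply]⟩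

theorem Q_apply (x : V) : Q x = ∑ i, nr (x i) := rfl

theorem polar_Q (x y : V) : polar Q x y = ∑ i, tr (x i * star (y i)) := by
  simp only [polar, Q_apply, Pi.add_apply, nr_add, Finset.sum_add_distrib]
  ring

theorem polar_single (x : V) (j : Fin 4) (y : E) : polar Q x (Pi.single j y) = tr (x j * star y) := by
  rw [polar_Q, Finset.sum_eq_single j (fun i _ h => by simp [h]) (by simp)]
  simp

theorem Q_single (j : Fin 4) (y : E) : Q (Pi.single j y) = nr y := by
  rw [Q_apply, Finset.sum_eq_single j (fun i _ h => by simp [h]) (by simp)]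
  simp

theorem nd : Q.polarBilin.Nondegenerate := by
  have k : ∀ x : V, (∀ y, polar Q x y = 0) → x = 0 := fun x h => funext fun j =>
    tr_nd _ fun y => by rw [← polar_single, h]
  exact ⟨k, fun x h => k x fun y => by rw [polar_comm]; exact h y⟩

theorem finrank_V : Module.finrank F4 V = 8 := by
  simp [Module.finrank_pi_fintype, QuadraticAlgebra.finrank_eq_two]

theorem nexc : ¬ IsExc Q := not_isExc_of_finrank (by rw [finrank_V]; decide)

/-- the pairs `(a, b)` with `N a + N b = 1`: a group of order `60` -/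
@[ext] structure S : Type where
  a : E
  b : E
  h : nr a + nr b = 1

theorem nr_pair (a b x y : E) :
    nr (a * x + b * star y) + nr (a * y + b * star x) = (nr a + nr b) * (nr x + nr y) := by
  have k : tr (a * x * star (b * star y)) = tr (a * y * star (b * star x)) := by
    simp only [star_mul, star_star]
    congr 1
    ring
  simp only [nr_add, nr_mul, nr_star, k]
  linear_combination H6.F4.add_self (tr (a * y * star (b * star x)))

theorem S.ms (p : S) : p.a * star p.a + p.b * star p.b = 1 := by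
  rw [mul_st, mul_st, ← add_smul, p.h, one_smul]

instance instMulS : Mul S := ⟨fun p q => ⟨p.a * q.a + p.b * star q.b, p.a * q.b + p.b * star q.a, by
  rw [nr_pair, p.h, q.h, mul_one]⟩⟩
instance instOneS : One S := ⟨⟨1, 0, by simp⟩⟩
instance instInvS : Inv S := ⟨fun p => ⟨star p.a, p.b, by rw [nr_star, p.h]⟩⟩

@[simp] theorem S.mul_a (p q : S) : (p * q).a = p.a * q.a + p.b * star q.b := rfl
@[simp] theorem S.mul_b (p q : S) : (p * q).b = p.a * q.b + p.b * star q.a := rfl
@[simp] theorem S.one_a : (1 : S).a = 1 := rfl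
@[simp] theorem S.one_b : (1 : S).b = 0 := rfl
@[simp] theorem S.inv_a (p : S) : p⁻¹.a = star p.a := rfl
@[simp] theorem S.inv_b (p : S) : p⁻¹.b = p.b := rfl

instance instGroupS : Group S := Group.ofLeftAxioms
  (fun p q r => by ext1 <;> simp only [S.mul_a, S.mul_b, star_add, star_mul, star_star] <;> ring)
  (fun p => by ext1 <;> simp)
  (fun p => by
    ext1 <;> simp only [S.mul_a, S.mul_b, S.inv_a, S.inv_b, S.one_a, S.one_b]
    · rw [mul_comm, p.ms]
    · rw [mul_comm, e_add_self])

instance instDecEqS : DecidableEq S := fun p q =>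
  decidable_of_iff (p.a = q.a ∧ p.b = q.b) S.ext_iff.symm

instance instFintypeS : Fintype S := Fintype.ofEquiv {p : E × E // nr p.1 + nr p.2 = 1}
  ⟨fun p => ⟨p.1.1, p.1.2, p.2⟩, fun p => ⟨(p.a, p.b), p.h⟩, fun _ => rfl, fun _ => rfl⟩

/-- `(ζ ^ a, 0)` -/
def cS (a : ZMod 5) : S := ⟨zt a, 0, by simp⟩
/-- `(0, 1)` -/
def sS : S := ⟨0, 1, by simp⟩

/-- `(x i, x j) ↦ (a x i + b (x j)⁻, a x j + b (x i)⁻)` -/
def Ll (i j : Fin 4) (p : S) : V →ₗ[F4] V where
  toFun x k := if k = i then p.a * x i + p.b * star (x j)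
    else if k = j then p.a * x j + p.b * star (x i) else x k
  map_add' x y := funext fun k => by
    simp only [Pi.add_apply, star_add]
    split_ifs <;> ring
  map_smul' c x := funext fun k => by
    simp only [Pi.smul_apply, st_smul, RingHom.id_apply]
    split_ifs <;> simp only [smul_add, mul_smul_comm]

theorem Ll_apply (i j : Fin 4) (p : S) (x : V) (k : Fin 4) : Ll i j p x k =
    if k = i then p.a * x i + p.b * star (x j)
    else if k = j then p.a * x j + p.b * star (x i) else x k := rfl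

theorem Ll_mul {i j : Fin 4} (h : i ≠ j) (p q : S) (x : V) :
    Ll i j (p * q) x = Ll i j p (Ll i j q x) := funext fun k => by
  simp only [Ll_apply, S.mul_a, S.mul_b, if_true, if_neg h.symm, star_add, star_mul, star_star]
  split_ifs <;> ring

theorem Ll_one (i j : Fin 4) (x : V) : Ll i j 1 x = x := funext fun k => by
  simp only [Ll_apply, S.one_a, S.one_b]
  split_ifs <;> simp [*]

theorem Q_Ll {i j : Fin 4} (h : i ≠ j) (p : S) (x : V) : Q (Ll i j p x) = Q x := by
  have k := nr_pair p.a p.b (x i) (x j)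
  rw [p.h, one_mul] at k
  rw [Q_apply, Q_apply, ← Finset.add_sum_erase _ _ (Finset.mem_univ i),
    ← Finset.add_sum_erase _ _ (Finset.mem_univ i),
    ← Finset.add_sum_erase _ _ (Finset.mem_erase.2 ⟨h.symm, Finset.mem_univ j⟩),
    ← Finset.add_sum_erase _ _ (Finset.mem_erase.2 ⟨h.symm, Finset.mem_univ j⟩), ← add_assoc,
    ← add_assoc, Ll_apply, Ll_apply, if_pos rfl, if_neg h.symm, if_pos rfl, k]
  congr 1
  refine Finset.sum_congr rfl fun l hl => ?_
  simp only [Finset.mem_erase] at hl
  rw [Ll_apply, if_neg hl.2.1, if_neg hl.1]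

/-- the group `A^L` on the coordinates `i ≠ j` -/
def Lh (i j : Fin 4) : S →* O Q :=
  if h : i ≠ j then MonoidHom.mk' (fun p => O.ofInv (Ll i j p) (Ll i j p⁻¹) (Q_Ll h p)
    (fun x => by rw [← Ll_mul h, mul_inv_cancel, Ll_one])
    (fun x => by rw [← Ll_mul h, inv_mul_cancel, Ll_one])) fun p q => O.ext (Ll_mul h p q)
  else 1

theorem Lh_apply {i j : Fin 4} (h : i ≠ j) (p : S) (x : V) (k : Fin 4) : Lh i j p x k =
    if k = i then p.a * x i + p.b * star (x j)
    else if k = j then p.a * x j + p.b * star (x i) else x k := by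
  rw [Lh, dif_pos h]; rfl

theorem Lh_self (i : Fin 4) : Lh i i = 1 := by simp [Lh]

/-- `star` on the coordinate `j`, a reflection -/
def ka (j : Fin 4) : O Q := refl Q (Pi.single j 1)

theorem ka_apply (j : Fin 4) (x : V) (k : Fin 4) :
    ka j x k = if k = j then star (x k) else x k := by
  rw [ka, refl_apply, Q_single, polar_comm, polar_single]
  simp only [nr_one, inv_one, one_mul, star_one, mul_one, Pi.sub_apply, Pi.smul_apply]
  split_ifs with h
  · subst h
    rw [Pi.single_eq_same, ← add_st, sub_add_cancel_left, neg_eq_iff_add_eq_zero, e_add_self]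
  · simp [h]

theorem ka_sq (j : Fin 4) : ka j * ka j = 1 := refl_mul_self _
theorem ka_inv (j : Fin 4) : (ka j)⁻¹ = ka j := inv_eq_of_mul_eq_one_right (ka_sq j)

/-- the group `A^R` on the coordinates `i ≠ j` -/
def Rh (i j : Fin 4) : S →* O Q := (MulAut.conj (ka j)).toMonoidHom.comp (Lh i j)

theorem Rh_eq (i j : Fin 4) (p : S) : Rh i j p = ka j * Lh i j p * ka j := by
  simp [Rh, ka_inv]

theorem Rh_apply {i j : Fin 4} (h : i ≠ j) (p : S) (x : V) (k : Fin 4) : Rh i j p x k =
    if k = i then p.a * x i + p.b * x j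
    else if k = j then star p.a * x j + star p.b * x i else x k := by
  simp only [Rh_eq, O.mul_apply, ka_apply, Lh_apply h, if_true, if_neg h]
  split_ifs with h1 h2 h2
  · exact (h (h2.symm.trans h1)).elim
  · simp [mul_comm]
  · simp
  · rfl

/-- the permutations of the coordinates -/
def Pm : Equiv.Perm (Fin 4) →* O Q := MonoidHom.mk' (fun π =>
  O.ofInv (LinearMap.funLeft F4 E π.symm) (LinearMap.funLeft F4 E π)
    (fun x => Equiv.sum_comp π.symm fun i => nr (x i))
    (fun x => funext fun k => by simp [LinearMap.funLeft_apply])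
    (fun x => funext fun k => by simp [LinearMap.funLeft_apply])) fun _ _ => O.ext fun _ => rfl

theorem Pm_apply (π : Equiv.Perm (Fin 4)) (x : V) (k : Fin 4) : Pm π x k = x (π.symm k) := rfl

/-- the diagonal map `diag (ζ ^ a k)` -/
def dl (a : Fin 4 → ZMod 5) : V →ₗ[F4] V where
  toFun x k := zt (a k) * x k
  map_add' x y := funext fun k => mul_add ..
  map_smul' c x := funext fun k => mul_smul_comm c (zt (a k)) (x k)

/-- the torus `5⁴` -/
def tau : Multiplicative (Fin 4 → ZMod 5) →* O Q := MonoidHom.mk' (fun a =>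
  O.ofInv (dl a.toAdd) (dl (-a.toAdd))
    (fun x => by
      change ∑ k, nr (zt (a.toAdd k) * x k) = ∑ k, nr (x k)
      simp only [nr_mul, nr_zt, one_mul])
    (fun x => funext fun k => by
      change zt _ * (zt _ * _) = _
      rw [← mul_assoc, ← zt_add]; simp)
    (fun x => funext fun k => by
      change zt _ * (zt _ * _) = _
      rw [← mul_assoc, ← zt_add]; simp)) fun a b => O.ext fun x => funext fun k => by
  change zt _ * _ = zt _ * (zt _ * _)
  rw [← mul_assoc, ← zt_add]; rfl

/-- `diag (ζ ^ a k)` -/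
abbrev tt (a : Fin 4 → ZMod 5) : O Q := tau (Multiplicative.ofAdd a)

theorem tt_apply (a : Fin 4 → ZMod 5) (x : V) (k : Fin 4) : tt a x k = zt (a k) * x k := rfl

theorem tt_add (a b : Fin 4 → ZMod 5) : tt (a + b) = tt a * tt b := map_mul tau _ _

theorem tau_inj : Function.Injective tau := (injective_iff_map_eq_one _).2 fun a h =>
  funext fun k => zt_inj _ _ (by
    have := congrFun (DFunLike.congr_fun h fun _ => 1) k
    exact (mul_one _).symm.trans (this.trans zt_zero.symm))

/-- `T₀` -/
abbrev T0 : Subgroup (O Q) := tau.range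

/-- `star` on the coordinates in `ε` -/
def ke (ε : Fin 4 → Bool) : O Q :=
  (if ε 0 then ka 0 else 1) * (if ε 1 then ka 1 else 1) * (if ε 2 then ka 2 else 1) *
    (if ε 3 then ka 3 else 1)

theorem ke_apply (ε : Fin 4 → Bool) (x : V) (k : Fin 4) :
    ke ε x k = if ε k then star (x k) else x k := by
  rw [ke]
  split_ifs <;> fin_cases k <;> simp_all [O.mul_apply, ka_apply]

/-- the four generating subgroups; the node `1` is the centre of the diagram -/
def hA : Fin 4 → (S →* O Q) := ![Rh 0 1, Rh 1 2, Rh 2 3, Lh 2 3]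

/-- all the groups `A^L`, `A^R` -/
def JJ : Subgroup (O Q) := closure {g | ∃ i j p, g = Lh i j p ∨ g = Rh i j p}

theorem Lh_mem (i j : Fin 4) (p : S) : Lh i j p ∈ JJ := subset_closure ⟨i, j, p, .inl rfl⟩
theorem Rh_mem (i j : Fin 4) (p : S) : Rh i j p ∈ JJ := subset_closure ⟨i, j, p, .inr rfl⟩

/-- slot `SG` -/
def SG : Prop := Nat.card S = 60 ∧ normalClosure {cS 1} = ⊤ ∧ commutator S = ⊤
/-- slot `ISO` -/
def ISO : Prop := IsSimpleGroup (commutator (O Q)) ∧
  Nonempty (Cfsg.Omega F4 (Cfsg.quadFormPlus 4 F4) ≃* commutator (O Q))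
/-- slot `G1` -/
def G1 : Prop := JJ ≤ ⨆ i, (hA i).range
/-- slot `G2` -/
def G2 : Prop := ∀ v, Q v ≠ 0 → ∃ g ∈ JJ, ∃ s : F4, s ≠ 0 ∧ g v = s • Pi.single 0 1
/-- slot `G3` -/
def G3 : Prop := G2 → commutator (O Q) ≤ JJ
/-- slot `N1` -/
def N1 : Prop := ∀ g ∈ normalizer (T0 : Set (O Q)), ∃ π : Equiv.Perm (Fin 4), ∀ i,
  (∃ c, c ≠ 0 ∧ g * tt (Pi.single i 1) * g⁻¹ = tt (Pi.single (π i) c)) ∧
    ∀ x, ∃ y, g (Pi.single i x) = Pi.single (π i) y
/-- slot `N2` -/
def N2 : Prop := N1 → ∀ g ∈ normalizer (T0 : Set (O Q)), ∃ a ε π, g = tt a * ke ε * Pm π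
/-- slot `N3` -/
def N3 : Prop := (∀ g ∈ normalizer (T0 : Set (O Q)), ∃ a ε π, g = tt a * ke ε * Pm π) →
  T0 ≤ commutator (O Q) ∧
    Nat.card ↥(normalizer (T0 : Set (O Q)) ⊓ commutator (O Q)) ≤ 625 * 192

end H86.M8
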