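import Cfsg.Agent.H86.M8.Asm
import Cfsg.Agent.H3.O84SG
import Cfsg.Agent.H20.O84Iso
import Cfsg.Agent.H77.O84G1
import Cfsg.Agent.H27.M8G2
import Cfsg.Agent.H80.M8G3
import Cfsg.Agent.H58.O84N1
import Cfsg.Agent.H33.O84N2
import Cfsg.Agent.H83.O84N3
import Cfsg.Agent.H40.O84Ge
import Cfsg.Agent.H25.M8N5

/-! Row S3384, part M: the result. -/

set_option autoImplicit false

namespace H86.M8

theorem slots : Slots := ⟨H3.O84SG.jSG, H20.O84Iso.jISO, H77.O84G1.jG1, H27.M8G2.jG2, H80.M8G3.jG3,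
  H58.O84N1.jN1, H33.O84N2.jN2, H83.O84.jN3, fun _ => H40.O84Ge.ncard_ge, H25.M8N5.jN5⟩

theorem modOm (F₄ : Type*) [Field F₄] [Fintype F₄] (h : Fintype.card F₄ = 4) :
    Nonempty (H36.O84.Mod (Cfsg.Omega F₄ (Cfsg.quadFormPlus 4 F₄))) := mod_omega slots F₄ h

end H86.M8
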