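import Cfsg.Agent.H86.M8.Def2
import Cfsg.Agent.H36.O84Spec

/-! Row S3384, part M: the assembly. -/

set_option autoImplicit false

namespace H86.M8

open H6 (F4)
open H56 Subgroup

theorem Lh_inj {i j : Fin 4} (h : i ≠ j) : Function.Injective (Lh i j) := fun p q e => by
  have k := fun l => congrFun (DFunLike.congr_fun e (Pi.single i 1)) l
  have k1 := k i
  have k2 := k j
  simp only [Lh_apply h, if_true, if_neg h.symm, Pi.single_eq_same, Pi.single_eq_of_ne h.symm,
    mul_one, star_zero, mul_zero, add_zero, star_one, zero_add] at k1 k2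
  exact S.ext k1 k2

theorem Rh_inj {i j : Fin 4} (h : i ≠ j) : Function.Injective (Rh i j) :=
  (MulAut.conj (ka j)).injective.comp (Lh_inj h)

/-- the four groups, centre at index `0` -/
def hB : Fin 4 → (S →* O Q) := ![Rh 1 2, Rh 0 1, Rh 2 3, Lh 2 3]

theorem hA_le (i : Fin 4) : ∃ j, hA i = hB j := by
  fin_cases i
  exacts [⟨1, by simp [hA, hB]⟩, ⟨0, by simp [hA, hB]⟩, ⟨2, by simp [hA, hB]⟩, ⟨3, by simp [hA, hB]⟩]

theorem hB_inj (i : Fin 4) : Function.Injective (hB i) := by
  fin_cases i
  exacts [Rh_inj (i := 1) (j := 2) (by decide), Rh_inj (i := 0) (j := 1) (by decide),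
    Rh_inj (i := 2) (j := 3) (by decide), Lh_inj (i := 2) (j := 3) (by decide)]

theorem mem_comm (h : commutator S = ⊤) (f : S →* O Q) (p : S) : f p ∈ commutator (O Q) := by
  have : (commutator S).map f ≤ commutator (O Q) := by
    rw [commutator_def, map_commutator]
    exact commutator_mono le_top le_top
  exact this ⟨p, h ▸ mem_top p, rfl⟩

/-- the hyperplanes -/
def gT (i : Fin 4) (b : Fin 3 → ZMod 5) : Fin 4 → ZMod 5 :=
  ![![b 0, b 1, b 1, b 2], ![b 0, b 0, b 1, b 2], ![b 0, b 1, b 2, b 2], ![b 0, b 1, b 2, -b 2]] i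

/-- the same as homomorphisms -/
def gH (i : Fin 4) : Multiplicative (Fin 3 → ZMod 5) →* Multiplicative (Fin 4 → ZMod 5) :=
  MonoidHom.mk' (fun b => Multiplicative.ofAdd (gT i b.toAdd)) fun a b => by
    rw [← ofAdd_add, toAdd_mul]
    congr 1
    funext k
    fin_cases i <;> fin_cases k <;> simp [gT, add_comm]

theorem gH_inj (i : Fin 4) : Function.Injective (gH i) := (injective_iff_map_eq_one _).2 fun a h => by
  have k : ∀ l, gT i a.toAdd l = 0 := fun l => congrFun h l
  have k0 := k 0
  have k1 := k 1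
  have k2 := k 2
  have k3 := k 3
  clear k h
  refine toAdd_eq_zero.1 (funext fun l => ?_)
  fin_cases i <;> fin_cases l <;> simp_all [gT]

theorem hB_comm (i : Fin 4) (p : S) (b : Fin 3 → ZMod 5) :
    hB i p * tt (gT i b) = tt (gT i b) * hB i p := O.ext fun x => funext fun k => by
  fin_cases i <;> fin_cases k <;>
    simp [hB, gT, O.mul_apply, Rh_apply, Lh_apply, tt_apply, st_zt] <;> ring

theorem hB_c (i : Fin 4) : ∃ a, hB i (cS 1) = tt a := by
  refine ⟨![![0, 1, -1, 0], ![1, -1, 0, 0], ![0, 0, 1, -1], ![0, 0, 1, 1]] i,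
    O.ext fun x => funext fun k => ?_⟩
  fin_cases i <;> fin_cases k <;> simp [hB, cS, Rh_apply, Lh_apply, tt_apply, st_zt]

theorem hB_braid (k : Fin 4) (h : k ≠ 0) :
    hB 0 sS * hB k sS * hB 0 sS = hB k sS * hB 0 sS * hB k sS := O.ext fun x => funext fun l => by
  fin_cases k
  · exact (h rfl).elim
  all_goals fin_cases l <;> simp [hB, sS, O.mul_apply, Rh_apply, Lh_apply]

theorem hB_cm (j k : Fin 4) (hj : j ≠ 0) (hk : k ≠ 0) :
    hB j sS * hB k sS = hB k sS * hB j sS := O.ext fun x => funext fun l => by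
  fin_cases j
  · exact (hj rfl).elim
  all_goals fin_cases k
  all_goals first
    | exact (hk rfl).elim
    | rfl
    | fin_cases l <;> simp [hB, sS, O.mul_apply, Rh_apply, Lh_apply]

theorem gT_inter {a : Fin 4 → ZMod 5} (h : ∀ i, ∃ b, gT i b = a) : a = 0 := by
  obtain ⟨b0, h0⟩ := h 0
  obtain ⟨b1, h1⟩ := h 1
  obtain ⟨b2, h2⟩ := h 2
  obtain ⟨b3, h3⟩ := h 3
  have e0 : a 1 = a 2 := by rw [← h0]; rfl
  have e1 : a 0 = a 1 := by rw [← h1]; rfl
  have e2 : a 2 = a 3 := by rw [← h2]; rfl
  have e3 : a 3 = -a 2 := by rw [← h3]; rfl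
  have k : ∀ x : ZMod 5, x = -x → x = 0 := by decide
  have e4 := k _ (e2.trans e3)
  funext l
  fin_cases l
  exacts [e1.trans (e0.trans e4), e0.trans e4, e4, e2.symm.trans e4]

section Lift

variable {H : Type*} [Group H] {ι : H →* O Q} (hι : Function.Injective ι)

/-- the lift of a homomorphism into the range -/
noncomputable def lft {X : Type} [Group X] (f : X →* O Q) (hf : ∀ x, f x ∈ ι.range) : X →* H :=
  (MonoidHom.ofInjective hι).symm.toMonoidHom.comp (f.codRestrict _ hf)

theorem ι_lft {X : Type} [Group X] (f : X →* O Q) (hf : ∀ x, f x ∈ ι.range) (x : X) :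
    ι (lft hι f hf x) = f x := MonoidHom.apply_ofInjective_symm hι _

theorem lft_inj {X : Type} [Group X] {f : X →* O Q} (hf : ∀ x, f x ∈ ι.range)
    (h : Function.Injective f) : Function.Injective (lft hι f hf) := fun x y e =>
  h (by rw [← ι_lft hι f hf, e, ι_lft])

theorem map_lft {X : Type} [Group X] (f : X →* O Q) (hf : ∀ x, f x ∈ ι.range) :
    (lft hι f hf).range.map ι = f.range := by
  rw [MonoidHom.map_range]
  congr 1
  exact MonoidHom.ext (ι_lft hι f hf)

theorem card_range_inj {X Y : Type*} [Group X] [Group Y] {f : X →* Y} (h : Function.Injective f) :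
    Nat.card f.range = Nat.card X := (Nat.card_congr (MonoidHom.ofInjective h).toEquiv).symm

end Lift

/-- All slots. -/
structure Slots : Prop where
  sg : SG
  iso : ISO
  g1 : G1
  g2 : G2
  g3 : G3
  n1 : N1
  n2 : N2
  n3 : N3
  n4 : N4
  n5 : N5

theorem mod_of (s : Slots) {H : Type*} [Group H] (e : H ≃* commutator (O Q)) :
    Nonempty (H36.O84.Mod H) := by
  let ι : H →* O Q := (commutator (O Q)).subtype.comp e.toMonoidHom
  have hι : Function.Injective ι := Subtype.val_injective.comp e.injective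
  have hr : ι.range = commutator (O Q) := by
    rw [MonoidHom.range_comp, MonoidHom.range_eq_top.2 e.surjective, ← MonoidHom.range_eq_map,
      range_subtype]
  obtain ⟨s1, s2, s3⟩ := s.sg
  obtain ⟨t1, t2⟩ := s.n3 (s.n2 s.n1)
  have mB : ∀ i p, hB i p ∈ ι.range := fun i p => hr ▸ mem_comm s3 _ p
  have mT : ∀ a, tau a ∈ ι.range := fun a => hr ▸ t1 ⟨a, rfl⟩
  have fO : Finite (O Q) := DFunLike.finite _
  have fH : Finite H := Finite.of_injective ι hι
  have := s.iso.1
  have iT := lft_inj hι mT tau_inj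
  have iB := fun i => lft_inj hι (mB i) (hB_inj i)
  refine ⟨{ fin := fH
            simple := e.isSimpleGroup
            nab := fun h => ?_
            n55 := fun h => s.n5 (h.trans ?_)
            T0 := (lft hι tau mT).range
            A := fun i => (lft hι (hB i) (mB i)).range
            Ti := fun i => ((lft hι tau mT).comp (gH i)).range
            c := fun i => lft hι (hB i) (mB i) (cS 1)
            s := fun i => lft hι (hB i) (mB i) sS
            tcomm := ?_
            tcard := ?_
            acard := fun i => by rw [card_range_inj (iB i), s1]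
            aperf := fun i => ?_
            cT := fun i => ?_
            cA := fun i => ⟨_, rfl⟩
            c1 := fun i h => ?_
            ancl := fun i => ?_
            tle := fun i => ?_
            ticard := fun i => ?_
            acen := fun i => ?_
            gen := ?_
            sA := fun i => ⟨_, rfl⟩
            sc := fun i => ?_
            braid := fun k hk t _ => ?_
            comm := fun j k hj hk t _ => ?_
            inter := fun t ht => ?_
            ncard := ?_ }⟩
  · have k := h (lft hι (hB 0) (mB 0) sS) (lft hι (hB 0) (mB 0) (cS 1))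
    rw [← map_mul, ← map_mul] at k
    exact absurd (iB 0 k) (by decide +kernel)
  · exact card_dvd_of_injective ι hι
  · rintro _ ⟨a, rfl⟩ _ ⟨b, rfl⟩
    rw [← map_mul, ← map_mul, mul_comm]
  · rw [card_range_inj iT]; simp
  · have k := Subgroup.map_commutator ⊤ ⊤ (lft hι (hB i) (mB i))
    rw [show (⁅⊤, ⊤⁆ : Subgroup S) = ⊤ from s3, ← MonoidHom.range_eq_map] at k
    exact k.symm
  · obtain ⟨a, ha⟩ := hB_c i
    exact ⟨Multiplicative.ofAdd a, hι ((ι_lft hι _ _ _).trans (ha.symm.trans (ι_lft hι _ _ _).symm))⟩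
  · exact absurd (iB i (h.trans (map_one _).symm)) (by decide +kernel)
  · rintro _ ⟨p, rfl⟩
    have hp : p ∈ normalClosure {cS 1} := s2 ▸ mem_top p
    rw [← mem_comap]
    refine (closure_le _).2 (fun q hq => ?_) hp
    obtain ⟨_, rfl, hq⟩ := Group.mem_conjugatesOfSet_iff.1 hq
    obtain ⟨x, rfl⟩ := isConj_iff.1 hq
    exact subset_closure ⟨_, ⟨x, rfl⟩, by simp⟩
  · rintro _ ⟨b, rfl⟩
    exact ⟨_, rfl⟩
  · rw [card_range_inj (f := (lft hι tau mT).comp (gH i)) (iT.comp (gH_inj i))]; simp
  · rintro _ ⟨p, rfl⟩ _ ⟨b, rfl⟩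
    refine hι ?_
    simp only [map_mul, MonoidHom.comp_apply, ι_lft]
    exact hB_comm i p _
  · refine map_injective hι ?_
    rw [← MonoidHom.range_eq_map, hr, Subgroup.map_iSup]
    simp only [map_lft]
    refine le_antisymm (iSup_le fun i => ?_) (((s.g3 s.g2).trans s.g1).trans (iSup_le fun i => ?_))
    · rintro _ ⟨p, rfl⟩
      exact mem_comm s3 _ p
    · obtain ⟨j, hj⟩ := hA_le i
      exact le_iSup_of_le j (by rw [hj])
  · rw [← map_inv, ← map_inv, ← map_mul, ← map_mul]
    exact congrArg _ (by decide +kernel)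
  · have k : lft hι (hB 0) (mB 0) sS * lft hι (hB k) (mB k) sS * lft hι (hB 0) (mB 0) sS =
        lft hι (hB k) (mB k) sS * lft hι (hB 0) (mB 0) sS * lft hι (hB k) (mB k) sS :=
      hι (by simp only [map_mul, ι_lft, hB_braid k hk])
    rw [k]
  · have k : lft hι (hB j) (mB j) sS * lft hι (hB k) (mB k) sS =
        lft hι (hB k) (mB k) sS * lft hι (hB j) (mB j) sS :=
      hι (by simp only [map_mul, ι_lft, hB_cm j k hj hk])
    rw [k]
  · obtain ⟨b, rfl⟩ := ht 0
    have k : (gH 0 b).toAdd = 0 := gT_inter fun i => by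
      obtain ⟨b', hb⟩ := ht i
      exact ⟨b'.toAdd, congrArg Multiplicative.toAdd (iT hb)⟩
    rw [MonoidHom.comp_apply, toAdd_eq_zero.1 k, map_one]
  · have k : (lft hι tau mT).range = T0.comap ι := by
      rw [T0, ← map_lft hι tau mT, comap_map_eq_self_of_injective hι]
    rw [k, ← comap_normalizer_eq_of_le_range (hr ▸ t1), ← card_map_of_injective hι, map_comap_eq,
      hr, inf_comm]
    exact le_antisymm t2 (s.n4 s3)

theorem mod_omega (s : Slots) (F₄ : Type*) [Field F₄] [Fintype F₄] (h : Fintype.card F₄ = 4) :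
    Nonempty (H36.O84.Mod (Cfsg.Omega F₄ (Cfsg.quadFormPlus 4 F₄))) := by
  obtain ⟨e⟩ := s.iso.2
  exact mod_of s ((H55.omegaCongr (FiniteField.ringEquivOfCardEq (K := F₄) (K' := F4) h)
    fun v => by simp [Cfsg.quadFormPlus]).trans e)

end H86.M8
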