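import Cfsg.Agent.H86.M8.Def

/-! Row S3384, part M: two more slots. -/

set_option autoImplicit false

namespace H86.M8

open H56 Subgroup

/-- slot `N4` -/
def N4 : Prop := commutator S = ⊤ →
  625 * 192 ≤ Nat.card ↥(normalizer (T0 : Set (O Q)) ⊓ commutator (O Q))
/-- slot `N5` -/
def N5 : Prop := ¬ 5 ^ 5 ∣ Nat.card (O Q)

end H86.M8
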